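import Cfsg.Agent.H79.DG.Gen

/-!
# Generation of `E Q` by an involution and another element, abstract form (helper79, for `S4180`)
-/

set_option autoImplicit false

namespace Cfsg.Agent.H79.DG

open QuadraticMap Cfsg.Agent.LieClassical.OrthCore Cfsg.Agent.LieClassical.OrthTrans
  Cfsg.Agent.LieClassical.OrthSimple Cfsg.Agent.ClassicalGeometry.OrthAutBasic
  Cfsg.Agent.H887.SiegelMethod Cfsg.Agent.H137

variable {F V : Type*} [Field F] [AddCommGroup V] [Module F V] {Q : QuadraticForm F V}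

theorem nn_mem {H : Subgroup (V ≃ₗ[F] V)} {x x' y y' : V} (h1 : T Q x' y ∈ H) (h2 : T Q x y' ∈ H) :
    nn Q x x' y y' ∈ H := H.mul_mem (H.mul_mem h1 h2) h1

theorem hyp2_swap {x x' y y' : V} (h : Hyp2 Q x x' y y') : Hyp2 Q x x' y' y :=
  ⟨h.hx, h.hy.symm, h.xy', h.xy, h.x'y', h.x'y⟩

/-- the exchange of `x` and `x'` -/
theorem exists_exch {H : Subgroup (V ≃ₗ[F] V)} {x x' y y' : V} (h : Hyp2 Q x x' y y') (h1 : T Q x' y ∈ H)
    (h2 : T Q x y' ∈ H) (h3 : T Q x' y' ∈ H) (h4 : T Q x y ∈ H) :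
    ∃ σ ∈ H, σ ∈ O Q ∧ σ x = -x' ∧ σ x' = -x ∧
      ∀ v, polar Q x v = 0 → polar Q x' v = 0 → polar Q y v = 0 → polar Q y' v = 0 → σ v = v := by
  have h' := hyp2_swap h
  refine ⟨nn Q x x' y' y * nn Q x x' y y', H.mul_mem (nn_mem h3 h4) (nn_mem h1 h2),
    E_le_O (E_mul (nn_mem_E _ _ _ _) (nn_mem_E _ _ _ _)), ?_, ?_, ?_⟩
  · show nn Q x x' y' y (nn Q x x' y y' x) = _
    rw [nn_x h, nn_y' h']
  · show nn Q x x' y' y (nn Q x x' y y' x') = _
    rw [nn_x' h, nn_y h']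
  · intro v a b c d
    show nn Q x x' y' y (nn Q x x' y y' v) = _
    rw [nn_fix h a b c d, nn_fix h' a b d c]

theorem E_le_of_U [FiniteDimensional F V] (hG : Good Q) {H : Subgroup (V ≃ₗ[F] V)} {e0 f0 e1 f1 : V}
    (h : Hyp2 Q e0 f0 e1 f1) {U : Submodule F V} (he1 : e1 ∈ U) (hf1 : f1 ∈ U)
    (hU : ∀ u ∈ U, polar Q e0 u = 0 ∧ polar Q f0 u = 0)
    (hUe : ∀ u ∈ U, T Q e0 u ∈ H) (hUf : ∀ u ∈ U, T Q f0 u ∈ H) {d d' : V}
    (hd : polar Q e0 d = 0 ∧ polar Q f0 d = 0 ∧ polar Q e1 d = 0 ∧ polar Q f1 d = 0)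
    (hd' : polar Q e0 d' = 0 ∧ polar Q f0 d' = 0 ∧ polar Q e1 d' = 0 ∧ polar Q f1 d' = 0)
    {c : F} (hc : c ≠ 0) (hTd : T Q e0 d ∈ H) (hTd' : T Q f0 (c • d') ∈ H)
    (hspan : ∀ v, polar Q e0 v = 0 → polar Q f0 v = 0 → ∃ u ∈ U, v - u ∈ Submodule.span F {d, d'}) :
    E Q ≤ H := by
  obtain ⟨σ, hσ, hσO, hσe, hσf, hσ0⟩ := exists_exch h (hUf _ he1) (hUe _ hf1) (hUf _ hf1) (hUe _ he1)
  -- the torus
  have ht : ∀ a : F, a ≠ 0 → hh Q e0 f0 e1 f1 a ∈ H := fun a ha =>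
    H.mul_mem (H.inv_mem (nn_mem (hUf _ he1) (hUe _ hf1)))
      (nn_mem (hUf _ (U.smul_mem _ he1)) (hUe _ (U.smul_mem _ hf1)))
  have hTe : ∀ w, polar Q e0 w = 0 → polar Q f0 w = 0 → polar Q e1 w = 0 → polar Q f1 w = 0 → T Q e0 w ∈ H →
      w ∈ Ts Q H e0 := by
    intro w w1 w2 w3 w4 hw
    refine ⟨w1, fun a => ?_⟩
    by_cases ha : a = 0
    · rw [ha, zero_smul, T_zero_right]; exact H.one_mem
    obtain ⟨s1, -, -, -, s5⟩ := hh_spec h ha
    have h2 := H.mul_mem (H.mul_mem (ht a ha) hw) (H.inv_mem (ht a ha))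
    rwa [T_conj (E_le_O (hh_mem_E _ _ _ _ _)), s1, s5 w w1 w2 w3 w4, T_smul_left a h.hx.left w1] at h2
  have hTf : ∀ w, polar Q e0 w = 0 → polar Q f0 w = 0 → polar Q e1 w = 0 → polar Q f1 w = 0 → T Q f0 w ∈ H →
      w ∈ Ts Q H f0 := by
    intro w w1 w2 w3 w4 hw
    refine ⟨w2, fun a => ?_⟩
    by_cases ha : a = 0
    · rw [ha, zero_smul, T_zero_right]; exact H.one_mem
    obtain ⟨-, s2, -, -, s5⟩ := hh_spec h (inv_ne_zero ha)
    have h2 := H.mul_mem (H.mul_mem (ht a⁻¹ (inv_ne_zero ha)) hw) (H.inv_mem (ht a⁻¹ (inv_ne_zero ha)))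
    rwa [T_conj (E_le_O (hh_mem_E _ _ _ _ _)), s2, s5 w w1 w2 w3 w4, inv_inv, T_smul_left a h.hx.right w2] at h2
  have hm1 : (-1 : F) ≠ 0 := neg_ne_zero.2 one_ne_zero
  have hde : d ∈ Ts Q H e0 := hTe d hd.1 hd.2.1 hd.2.2.1 hd.2.2.2 hTd
  have hdf : d ∈ Ts Q H f0 := by
    have h1 := map_mem_Ts hσ hσO hde
    rwa [hσe, hσ0 d hd.1 hd.2.1 hd.2.2.1 hd.2.2.2, ← neg_one_smul F, Ts_smul hm1 h.hx.right] at h1
  have hdf' : d' ∈ Ts Q H f0 := by
    have h1 : c • d' ∈ Ts Q H f0 := hTf _ (by rw [polar_smul_right, hd'.1, smul_zero])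
      (by rw [polar_smul_right, hd'.2.1, smul_zero]) (by rw [polar_smul_right, hd'.2.2.1, smul_zero])
      (by rw [polar_smul_right, hd'.2.2.2, smul_zero]) hTd'
    have h2 := (Ts Q H f0).smul_mem c⁻¹ h1
    rwa [smul_smul, inv_mul_cancel₀ hc, one_smul] at h2
  have hde' : d' ∈ Ts Q H e0 := by
    have h1 := map_mem_Ts hσ hσO hdf'
    rwa [hσf, hσ0 d' hd'.1 hd'.2.1 hd'.2.2.1 hd'.2.2.2, ← neg_one_smul F, Ts_smul hm1 h.hx.left] at h1
  have hUe' : ∀ u ∈ U, u ∈ Ts Q H e0 := fun u hu => ⟨(hU u hu).1, fun a => hUe _ (U.smul_mem _ hu)⟩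
  have hUf' : ∀ u ∈ U, u ∈ Ts Q H f0 := fun u hu => ⟨(hU u hu).2, fun a => hUf _ (U.smul_mem _ hu)⟩
  have hef : polar Q f0 e0 = 1 := h.hx.pair'
  refine E_le_of_Ts hG h.hx.left h.hx.right (by rw [h.hx.pair]; exact one_ne_zero) ?_ ?_
  · intro v hv
    obtain ⟨u, hu, hs⟩ := hspan (v - polar Q f0 v • e0)
      (by rw [polar_sub_right, polar_smul_right, hv, polar_self_of_sing h.hx.left, smul_zero, sub_zero])
      (by rw [polar_sub_right, polar_smul_right, hef, smul_eq_mul, mul_one, sub_self])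
    have h1 : v - polar Q f0 v • e0 - u ∈ Ts Q H e0 := by
      refine (Submodule.span_le.2 ?_) hs
      rintro x (rfl | rfl)
      · exact hde
      · exact hde'
    have e : v = (v - polar Q f0 v • e0 - u) + u + polar Q f0 v • e0 := by abel
    rw [e]
    exact Submodule.add_mem _ (Submodule.add_mem _ h1 (hUe' u hu)) (Submodule.smul_mem _ _ (self_mem_Ts h.hx.left))
  · intro v hv
    obtain ⟨u, hu, hs⟩ := hspan (v - polar Q e0 v • f0)
      (by rw [polar_sub_right, polar_smul_right, h.hx.pair, smul_eq_mul, mul_one, sub_self])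
      (by rw [polar_sub_right, polar_smul_right, hv, polar_self_of_sing h.hx.right, smul_zero, sub_zero])
    have h1 : v - polar Q e0 v • f0 - u ∈ Ts Q H f0 := by
      refine (Submodule.span_le.2 ?_) hs
      rintro x (rfl | rfl)
      · exact hdf
      · exact hdf'
    have e : v = (v - polar Q e0 v • f0 - u) + u + polar Q e0 v • f0 := by abel
    rw [e]
    exact Submodule.add_mem _ (Submodule.add_mem _ h1 (hUf' u hu)) (Submodule.smul_mem _ _ (self_mem_Ts h.hx.right))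

/-- The abstract form. -/
theorem exists_b [FiniteDimensional F V] (hG : Good Q) {e0 f0 e1 f1 : V}
    (h : Hyp2 Q e0 f0 e1 f1) {U : Submodule F V} (he1 : e1 ∈ U) (hf1 : f1 ∈ U)
    (hU : ∀ u ∈ U, polar Q e0 u = 0 ∧ polar Q f0 u = 0) {d0 d : V}
    (hd0 : polar Q e0 d0 = 0 ∧ polar Q f0 d0 = 0 ∧ ∀ u ∈ U, polar Q u d0 = 0)
    (hd : polar Q e0 d = 0 ∧ polar Q f0 d = 0 ∧ ∀ u ∈ U, polar Q u d = 0)
    (hQ0 : Q d0 ≠ 0) (hdd : polar Q d0 d ≠ 0)
    (hspan : ∀ v, polar Q e0 v = 0 → polar Q f0 v = 0 → ∃ u ∈ U, v - u ∈ Submodule.span F {d0, d})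
    {S : V ≃ₗ[F] V} (hSE : S ∈ E Q) {N : ℕ} (hN : Nat.Coprime N 2) (hSN : S ^ N = 1) (hSe : S e0 = e0)
    (hSf : S f0 = f0) (hSd0 : S d0 = d0) {y : V} (hy : y ∈ U)
    (hadd : ∀ Y : AddSubgroup V, (∀ v ∈ Y, S v ∈ Y) → y + d ∈ Y → (∀ u ∈ U, u ∈ Y) ∧ d ∈ Y) :
    ∃ b ∈ E Q, E Q ≤ Subgroup.closure {T Q e0 (y + d), b} := by
  obtain ⟨r, hrE, hre, hrf, hr⟩ := exists_rr hG h.hx hd0.1 hd0.2.1 hQ0 rfl
  have hSO := E_le_O hSE
  have hdec : ∀ v : V, ∃ v', polar Q e0 v' = 0 ∧ polar Q f0 v' = 0 ∧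
      v = v' + polar Q f0 v • e0 + polar Q e0 v • f0 := by
    intro v
    refine ⟨v - polar Q f0 v • e0 - polar Q e0 v • f0, ?_, ?_, by abel⟩
    · rw [polar_sub_right, polar_sub_right, polar_smul_right, polar_smul_right, polar_self_of_sing h.hx.left,
        h.hx.pair, smul_zero, smul_eq_mul, mul_one, sub_zero, sub_self]
    · rw [polar_sub_right, polar_sub_right, polar_smul_right, polar_smul_right, polar_self_of_sing h.hx.right,
        h.hx.pair', smul_zero, smul_eq_mul, mul_one, sub_zero, sub_self]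
  have hdd0 : polar Q d0 d0 = 2 * Q d0 := polar_self' d0
  have hr2 : r ^ 2 = 1 := by
    ext v
    rw [pow_two]
    show r (r v) = v
    obtain ⟨v', h1, h2, h3⟩ := hdec v
    have h4 : r (r e0) = e0 := by
      rw [hre, map_neg, map_smul, hrf, smul_neg, neg_neg, smul_smul, mul_inv_cancel₀ hQ0, one_smul]
    have h5 : r (r f0) = f0 := by
      rw [hrf, map_neg, map_smul, hre, smul_neg, neg_neg, smul_smul, inv_mul_cancel₀ hQ0, one_smul]
    have h6 : r (r v') = v' := by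
      rw [hr v' h1 h2, map_sub, map_smul, hr v' h1 h2, hr d0 hd0.1 hd0.2.1, hdd0]
      have h7 : (Q d0)⁻¹ * (2 * Q d0) = 2 := by field_simp
      rw [h7, smul_sub, smul_smul]
      module
    rw [h3, map_add, map_add, map_smul, map_smul, map_add, map_add, map_smul, map_smul, h4, h5, h6]
  have hSr : Commute S r := by
    show S * r = r * S
    ext v
    show S (r v) = r (S v)
    obtain ⟨v', h1, h2, h3⟩ := hdec v
    have h4 : S (r e0) = r (S e0) := by rw [hSe, hre, map_neg, map_smul, hSf]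
    have h5 : S (r f0) = r (S f0) := by rw [hSf, hrf, map_neg, map_smul, hSe]
    have h6 : S (r v') = r (S v') := by
      have p1 : polar Q e0 (S v') = 0 := by
        have := polar_map hSO e0 v'
        rwa [hSe, h1] at this
      have p2 : polar Q f0 (S v') = 0 := by
        have := polar_map hSO f0 v'
        rwa [hSf, h2] at this
      have p3 : polar Q d0 (S v') = polar Q d0 v' := by
        have := polar_map hSO d0 v'
        rwa [hSd0] at this
      rw [hr v' h1 h2, hr _ p1 p2, p3, map_sub, map_smul, hSd0]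
    rw [h3]
    simp only [map_add, map_smul, h4, h5, h6]
  refine ⟨S * r, E_mul hSE hrE, ?_⟩
  set H := Subgroup.closure {T Q e0 (y + d), S * r} with hH
  have hb : S * r ∈ H := Subgroup.subset_closure (by simp)
  have hτ : T Q e0 (y + d) ∈ H := Subgroup.subset_closure (by simp)
  obtain ⟨hS, hrH⟩ := mem_of_mul_coprime hSr hN hSN hr2 hb
  have hrO := E_le_O hrE
  -- the additive subgroup
  have hye : polar Q e0 (y + d) = 0 := by rw [polar_add_right, (hU y hy).1, hd.1, add_zero]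
  let Y : AddSubgroup V :=
    { carrier := {v | polar Q e0 v = 0 ∧ T Q e0 v ∈ H}
      add_mem' := by
        rintro v w ⟨h1, h2⟩ ⟨h3, h4⟩
        refine ⟨by rw [polar_add_right, h1, h3, add_zero], ?_⟩
        rw [← T_mul h.hx.left h1 h3]
        exact H.mul_mem h2 h4
      zero_mem' := ⟨polar_zero_right Q _, by rw [T_zero_right]; exact H.one_mem⟩
      neg_mem' := by
        rintro v ⟨h1, h2⟩
        refine ⟨by rw [polar_neg_right, h1, neg_zero], ?_⟩
        rw [← T_inv h.hx.left h1]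
        exact H.inv_mem h2 }
  have hYS : ∀ v ∈ Y, S v ∈ Y := by
    rintro v ⟨h1, h2⟩
    refine ⟨?_, ?_⟩
    · have := polar_map hSO e0 v
      rwa [hSe, h1] at this
    · have h3 := H.mul_mem (H.mul_mem hS h2) (H.inv_mem hS)
      rwa [T_conj hSO, hSe] at h3
  obtain ⟨hUY, hdY⟩ := hadd Y hYS ⟨hye, hτ⟩
  have hUe : ∀ u ∈ U, T Q e0 u ∈ H := fun u hu => (hUY u hu).2
  have hne : -(Q d0) ≠ 0 := neg_ne_zero.2 hQ0
  have hmap : ∀ v, polar Q e0 v = 0 → polar Q f0 v = 0 → T Q e0 v ∈ H → T Q f0 (-(Q d0) • r v) ∈ H := by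
    intro v h1 h2 h3
    have h4 := H.mul_mem (H.mul_mem hrH h3) (H.inv_mem hrH)
    rw [T_conj hrO, hre, ← neg_smul, T_smul_left _ h.hx.right] at h4
    · exact h4
    · rw [hr v h1 h2, polar_sub_right, polar_smul_right, h2, hd0.2.1, smul_zero, sub_zero]
  have hUf : ∀ u ∈ U, T Q f0 u ∈ H := by
    intro u hu
    have h1 : (-(Q d0))⁻¹ • u ∈ U := U.smul_mem _ hu
    have h2 := hmap _ (hU _ h1).1 (hU _ h1).2 (hUe _ h1)
    have h3 : r u = u := by
      rw [hr u (hU u hu).1 (hU u hu).2, polar_comm, hd0.2.2 u hu, mul_zero, zero_smul, sub_zero]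
    rwa [map_smul, h3, smul_smul, mul_inv_cancel₀ hne, one_smul] at h2
  have hrd : r d = d - ((Q d0)⁻¹ * polar Q d0 d) • d0 := hr d hd.1 hd.2.1
  have hk : ((Q d0)⁻¹ * polar Q d0 d) ≠ 0 := mul_ne_zero (inv_ne_zero hQ0) hdd
  refine E_le_of_U hG h he1 hf1 hU hUe hUf (d := d) (d' := r d)
    ⟨hd.1, hd.2.1, hd.2.2 _ he1, hd.2.2 _ hf1⟩ ?_ hne hdY.2 (hmap d hd.1 hd.2.1 hdY.2) ?_
  · rw [hrd]
    refine ⟨?_, ?_, ?_, ?_⟩
    · rw [polar_sub_right, polar_smul_right, hd.1, hd0.1, smul_zero, sub_zero]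
    · rw [polar_sub_right, polar_smul_right, hd.2.1, hd0.2.1, smul_zero, sub_zero]
    · rw [polar_sub_right, polar_smul_right, hd.2.2 _ he1, hd0.2.2 _ he1, smul_zero, sub_zero]
    · rw [polar_sub_right, polar_smul_right, hd.2.2 _ hf1, hd0.2.2 _ hf1, smul_zero, sub_zero]
  · intro v h1 h2
    obtain ⟨u, hu, hs⟩ := hspan v h1 h2
    refine ⟨u, hu, (Submodule.span_le.2 ?_) hs⟩
    rintro x (rfl | rfl)
    · have e : x = ((Q x)⁻¹ * polar Q x d)⁻¹ • d - ((Q x)⁻¹ * polar Q x d)⁻¹ • (r d) := by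
        rw [hrd, ← smul_sub, sub_sub_cancel, smul_smul, inv_mul_cancel₀ hk, one_smul]
      have h5 : ((Q x)⁻¹ * polar Q x d)⁻¹ • d - ((Q x)⁻¹ * polar Q x d)⁻¹ • (r d) ∈
          Submodule.span F {d, r d} :=
        Submodule.sub_mem _ (Submodule.smul_mem _ _ (Submodule.subset_span (by simp)))
          (Submodule.smul_mem _ _ (Submodule.subset_span (by simp)))
      rw [SetLike.mem_coe, e]
      exact h5
    · exact Submodule.subset_span (by simp)

/-- `T(e, y)` is not central -/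
theorem not_comm (hG : Good Q) {e0 f0 d0 : V} (h : Hyp Q e0 f0) (h1 : polar Q e0 d0 = 0) (h2 : polar Q f0 d0 = 0)
    (hQ0 : Q d0 ≠ 0) {y : V} (hy1 : polar Q e0 y = 0) (hy2 : polar Q f0 y = 0) (hy0 : y ≠ 0) :
    ∃ g ∈ E Q, g * T Q e0 y ≠ T Q e0 y * g := by
  obtain ⟨r, hrE, hre, hrf, hr⟩ := exists_rr hG h h1 h2 hQ0 rfl
  refine ⟨r, hrE, fun h3 => ?_⟩
  have h4 := T_conj (E_le_O hrE) e0 y
  rw [h3, mul_inv_cancel_right] at h4
  have h5 : T Q e0 y e0 = T Q (r e0) (r y) e0 := by rw [← h4]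
  have hry : r y = y - ((Q d0)⁻¹ * polar Q d0 y) • d0 := hr y hy1 hy2
  have p0 : polar Q f0 (r y) = 0 := by
    rw [hry, polar_sub_right, polar_smul_right, hy2, h2, smul_zero, sub_zero]
  have p1 : polar Q e0 (r y) = 0 := by
    rw [hry, polar_sub_right, polar_smul_right, hy1, h1, smul_zero, sub_zero]
  have p1' : polar Q (r y) e0 = 0 := by rw [polar_comm]; exact p1
  rw [T_apply_self h.left hy1, hre, ← neg_smul, T_smul_left _ h.right p0, T_apply h.right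
    (by rw [polar_smul_right, p0, smul_zero]), h.pair', one_smul, polar_smul_left, p1', smul_zero, zero_smul,
    sub_zero, mul_one] at h5
  have h6 : (-(Q d0)) • r y = Q (-(Q d0) • r y) • f0 := by
    have h7 := h5
    rw [add_sub_assoc] at h7
    have h8 := (left_eq_add.1 h7)
    exact sub_eq_zero.1 h8
  have h9 : Q (-(Q d0) • r y) = 0 := by
    have h10 := congrArg (polar Q e0) h6
    rw [polar_smul_right, p1, smul_zero, polar_smul_right, h.pair, smul_eq_mul, mul_one] at h10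
    exact h10.symm
  rw [h9, zero_smul] at h6
  have h11 := (smul_eq_zero.1 h6).resolve_left (neg_ne_zero.2 hQ0)
  exact hy0 (r.injective (by rw [h11, map_zero]))

end Cfsg.Agent.H79.DG
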