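import Cfsg.Agent.H79.DG.OddQ
import Cfsg.Agent.S2413
import Cfsg.Agent.S2414
import Cfsg.Agent.S2415

/-!
# The hyperbolic families of the three forms (helper79, for `S4180`)
-/

set_option autoImplicit false

namespace Cfsg.Agent.H79.DG

open QuadraticMap Cfsg.Agent.LieClassical.OrthCore Cfsg.Agent.LieClassical.OrthTrans
  Cfsg.Agent.LieClassical.OrthForms Cfsg.Agent.LieClassical.OrthFinite Cfsg.Agent.H137

theorem hasFam_odd {F : Type*} [Field F] (h2 : (2 : F) ≠ 0) (k : ℕ) : HasFam (oddForm (k + 1) F) k := by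
  refine ⟨fun i => Pi.single (Sum.inr (Sum.inl i)) 1, fun i => Pi.single (Sum.inr (Sum.inr i)) 1,
    Pi.single (Sum.inl ()) 1, Pi.single (Sum.inl ()) 1,
    ⟨fun i => S2413.q_inl _, fun i => S2413.q_inr _, ?_, ?_, ?_⟩, ⟨?_, ?_⟩, ⟨?_, ?_⟩, ?_, ?_, ?_⟩
  · intro i j
    rw [S2413.polar_inl]; simp
  · intro i j
    rw [S2413.polar_inr]; simp
  · intro i j
    rw [S2413.polar_inl]; simp [Pi.single_apply]
  · intro i
    rw [S2413.polar_inl]; simp
  · intro i
    rw [S2413.polar_inr]; simp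
  · intro i
    rw [S2413.polar_inl]; simp
  · intro i
    rw [S2413.polar_inr]; simp
  · rw [S2413.q_mid]; exact one_ne_zero
  · rw [polar_self', S2413.q_mid, mul_one]; exact h2
  · rintro v ⟨h1, h3⟩
    have e : v = (v (Sum.inl ())) • (Pi.single (Sum.inl ()) 1 : Unit ⊕ (Fin (k + 1) ⊕ Fin (k + 1)) → F) := by
      ext j
      rcases j with j | (j | j)
      · simp
      · have := h3 j
        rw [S2413.polar_inr] at this
        simp [this]
      · have := h1 j
        rw [S2413.polar_inl] at this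
        simp [this]
    rw [e]
    exact Submodule.smul_mem _ _ (Submodule.subset_span (by simp))

theorem hasFam_plus {F : Type*} [Field F] (k : ℕ) : HasFam (plusForm (k + 2) F) k := by
  refine ⟨fun i => Pi.single (Sum.inl i.succ) 1, fun i => Pi.single (Sum.inr i.succ) 1,
    Pi.single (Sum.inl 0) 1 + Pi.single (Sum.inr 0) 1, Pi.single (Sum.inl 0) 1,
    ⟨fun i => S2414.q_inl _, fun i => S2414.q_inr _, ?_, ?_, ?_⟩, ⟨?_, ?_⟩, ⟨?_, ?_⟩, ?_, ?_, ?_⟩
  · intro i j
    rw [S2414.polar_inl]; simp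
  · intro i j
    rw [S2414.polar_inr]; simp
  · intro i j
    rw [S2414.polar_inl]; simp [Pi.single_apply]
  · intro i
    rw [S2414.polar_inl]; simp [Pi.single_apply]
  · intro i
    rw [S2414.polar_inr]; simp [Pi.single_apply]
  · intro i
    rw [S2414.polar_inl]; simp
  · intro i
    rw [S2414.polar_inr]; simp [Pi.single_apply]
  · rw [Q_add, S2414.q_inl, S2414.q_inr, S2414.polar_inl]; simp
  · rw [polar_add_left, S2414.polar_inl, S2414.polar_inr]; simp
  · rintro v ⟨h1, h2⟩
    have e : v = (v (Sum.inr 0)) • (Pi.single (Sum.inl 0) 1 + Pi.single (Sum.inr 0) 1 : Fin (k + 2) ⊕ Fin (k + 2) → F) +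
        (v (Sum.inl 0) - v (Sum.inr 0)) • (Pi.single (Sum.inl 0) 1 : Fin (k + 2) ⊕ Fin (k + 2) → F) := by
      ext j
      rcases j with j | j
      · refine Fin.cases ?_ (fun j => ?_) j
        · simp
        · have := h2 j
          rw [S2414.polar_inr] at this
          simp [this]
      · refine Fin.cases ?_ (fun j => ?_) j
        · simp
        · have := h1 j
          rw [S2414.polar_inl] at this
          simp [this]
    rw [e]
    exact Submodule.add_mem _ (Submodule.smul_mem _ _ (Submodule.subset_span (by simp)))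
      (Submodule.smul_mem _ _ (Submodule.subset_span (by simp)))

theorem good_plus {F : Type*} [Field F] [Fintype F] (k : ℕ) (hk : 2 ≤ k) : Good (plusForm (k + 2) F) := by
  refine good_of_finite (nondeg_plusForm (m := k + 2) (F := F)) ?_
  rw [Module.finrank_fintype_fun_eq_card]
  simp; omega

theorem good_minus {F : Type*} [Field F] [Fintype F] (k : ℕ) (hk : 2 ≤ k) {a b : F}
    (hab : ∀ z₁ z₂ : F, z₁ ^ 2 + a * z₁ * z₂ + b * z₂ ^ 2 = 0 → z₁ = 0 ∧ z₂ = 0) :
    Good (minusForm (k + 1) F a b) := by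
  refine good_of_finite (nondeg_minusForm (m := k + 1) (F := F) a b hab) ?_
  rw [Module.finrank_fintype_fun_eq_card]
  simp; omega

theorem hasFam_minus {F : Type*} [Field F] [Finite F] (k : ℕ) {a b : F}
    (hab : ∀ z₁ z₂ : F, z₁ ^ 2 + a * z₁ * z₂ + b * z₂ ^ 2 = 0 → z₁ = 0 ∧ z₂ = 0) :
    HasFam (minusForm (k + 1) F a b) k := by
  obtain ⟨s, hs⟩ : ∃ s : F, 2 * s + a ≠ 0 := by
    by_cases ha : a = 0
    · have hd := Cfsg.Agent.LieClassical.OmegaReindex.disc_ne_zero hab
      refine ⟨1, ?_⟩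
      intro h
      apply hd
      have h2 : (2 : F) = 0 := by rw [ha] at h; simpa using h
      rw [ha]
      linear_combination (2 * b) * h2
    · exact ⟨0, by simpa using ha⟩
  refine ⟨fun i => Pi.single (Sum.inl (Sum.inl i)) 1, fun i => Pi.single (Sum.inl (Sum.inr i)) 1,
    S2415.zv (k + 1) 1 0, S2415.zv (k + 1) s 1,
    ⟨fun i => S2415.q_inl _ _ _, fun i => S2415.q_inr _ _ _, ?_, ?_, ?_⟩, ⟨?_, ?_⟩, ⟨?_, ?_⟩, ?_, ?_, ?_⟩
  · intro i j
    rw [S2415.polar_inl]; simp
  · intro i j
    rw [S2415.polar_inr]; simp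
  · intro i j
    rw [S2415.polar_inl]; simp [Pi.single_apply]
  · intro i
    rw [S2415.polar_inl]; simp [S2415.zv]
  · intro i
    rw [S2415.polar_inr]; simp [S2415.zv]
  · intro i
    rw [S2415.polar_inl]; simp [S2415.zv]
  · intro i
    rw [S2415.polar_inr]; simp [S2415.zv]
  · rw [S2415.q_zv]; simp
  · rw [S2415.polar_zv]; simpa using hs
  · rintro v ⟨h1, h2⟩
    have e : v = (v (Sum.inr 0) - v (Sum.inr 1) * s) • (S2415.zv (k + 1) 1 0 : (Fin (k + 1) ⊕ Fin (k + 1)) ⊕ Fin 2 → F) +
        (v (Sum.inr 1)) • (S2415.zv (k + 1) s 1 : (Fin (k + 1) ⊕ Fin (k + 1)) ⊕ Fin 2 → F) := by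
      ext j
      rcases j with (j | j) | j
      · have := h2 j
        rw [S2415.polar_inr] at this
        simp [S2415.zv, this]
      · have := h1 j
        rw [S2415.polar_inl] at this
        simp [S2415.zv, this]
      · fin_cases j
        · simp [S2415.zv]
        · simp [S2415.zv]
    rw [e]
    exact Submodule.add_mem _ (Submodule.smul_mem _ _ (Submodule.subset_span (by simp)))
      (Submodule.smul_mem _ _ (Submodule.subset_span (by simp)))

end Cfsg.Agent.H79.DG
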